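import Mathlib
import Cfsg.Agent.H622.Central
import Cfsg.Agent.H622.Over

/-!
# No self-centralizing cyclic subgroups in fully ramified quotients
-/

set_option autoImplicit false
open Cfsg

namespace Cfsg.Agent.H622.SelfCent

open Cfsg.Agent.Characters.Core Subgroup Cfsg.Agent.H622.FR Cfsg.Agent.H622.Over
  Cfsg.Agent.H622.Central

universe u

/-- Elements outside the central subgroup are not good. -/
theorem not_good {Γ : Type u} [Group Γ] [Finite Γ] {N : Subgroup Γ} (hN : N ≤ center Γ)
    {c : N →* ℂˣ} {X : Γ → ℂ} (hX : IsIrrCharacter Γ X) (hl : Lies N c X)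
    (hdeg : X 1 ^ 2 = (N.index : ℂ)) {g : Γ} (hg : g ∉ N) : ¬ Good N c g := by
  intro hgood
  have hc : IsIrrCharacter N (fun n => (c n : ℂ)) := Characters.Linear.isIrrCharacter_hom c
  have hlies : ∀ ψ : Γ → ℂ, IsIrrCharacter Γ ψ → Lies N c ψ →
      OverMul N.subtype (fun n => (c n : ℂ)) ψ := by
    intro ψ hψ h
    refine ⟨hψ, fun n => ?_⟩
    have := h 1 n
    rw [one_mul] at this
    simp only [coe_subtype]
    rw [this, map_one, Units.val_one, mul_one]
  have hFR : FullRam N.subtype (fun n => (c n : ℂ)) X := by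
    refine ⟨hlies X hX hl, ?_⟩
    rw [hdeg, map_one, Units.val_one, one_pow, mul_one]
    have := N.card_mul_index
    rw [← this]
    push_cast
    ring
  have hXg : X g = 0 := by
    apply hFR.eq_zero N.subtype_injective hc
    rwa [range_subtype]
  have h1 := bump_mem hN c g
  rw [← span_over hN c] at h1
  have h2 : ∀ f ∈ Submodule.span ℂ (Set.range
      (fun χ : {χ : IrrCharacter Γ // Lies N c (χ : Γ → ℂ)} => ((χ : IrrCharacter Γ) : Γ → ℂ))),
      f g = 0 := by
    intro f hf
    induction hf using Submodule.span_induction with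
    | mem x hx =>
      obtain ⟨χ, rfl⟩ := hx
      have : ((χ : IrrCharacter Γ) : Γ → ℂ) = X :=
        eq_of_fullRam N.subtype_injective hc hFR (hlies _ χ.1.2 χ.2)
      simp only [this, hXg]
    | zero => rfl
    | add a b _ _ ha hb => simp [ha, hb]
    | smul r a _ ha => simp [ha]
  exact bump_self_ne_zero c hgood (h2 _ h1)

theorem centralizer_ne {H : Type u} [Group H] [Finite H] (Z : Subgroup H) [Z.Normal]
    {θ : Z → ℂ} (hθ : IsIrrCharacter Z θ) {χ : H → ℂ} (hχ : FullRam Z.subtype θ χ) (hZ : Z ≠ ⊤)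
    (C : Subgroup (H ⧸ Z)) (hC : IsCyclic C) : centralizer (C : Set (H ⧸ Z)) ≠ C := by
  intro hcent
  obtain ⟨Γ, hg, hfin, π, X, hπ, hker, hX, hdeg⟩ := exists_central Z hθ hχ
  obtain ⟨⟨a, haC⟩, ha⟩ := hC.exists_generator
  have ha' : ∀ y ∈ C, y ∈ zpowers a := by
    intro y hy
    obtain ⟨k, hk⟩ := ha ⟨y, hy⟩
    exact ⟨k, congrArg Subtype.val hk⟩
  obtain ⟨g, hga⟩ := hπ a
  obtain ⟨c, hc⟩ := exists_hom hker hX
  have hidx : X 1 ^ 2 = (π.ker.index : ℂ) := by
    rw [hdeg, index_ker, MonoidHom.range_eq_top.2 hπ, card_top]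
  by_cases hgk : g ∈ π.ker
  · have ha1 : a = 1 := by rw [← hga]; exact hgk
    subst ha1
    have hC1 : C = ⊥ := by
      rw [eq_bot_iff]
      intro y hy
      have := ha' y hy
      rwa [zpowers_one_eq_bot] at this
    have htop : centralizer (C : Set (H ⧸ Z)) = ⊤ := by
      rw [eq_top_iff]
      intro y _
      rw [mem_centralizer_iff]
      intro z hz
      rw [hC1] at hz
      have : z = 1 := hz
      rw [this, one_mul, mul_one]
    rw [htop, hC1] at hcent
    apply hZ
    rw [eq_top_iff]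
    intro y _
    have : (y : H ⧸ Z) ∈ (⊤ : Subgroup (H ⧸ Z)) := trivial
    rw [hcent] at this
    exact (QuotientGroup.eq_one_iff y).1 this
  · have h1 := not_good hker hX hc hidx hgk
    unfold Good at h1
    push Not at h1
    obtain ⟨x, hx, hne⟩ := h1
    apply hne
    -- `π x` centralizes `a`
    have h2 : π x * a = a * π x := by
      have h3 : π (x⁻¹ * g⁻¹ * x * g) = 1 := hx
      rw [map_mul, map_mul, map_mul, map_inv, map_inv, hga] at h3
      have h4 : (π x)⁻¹ * a⁻¹ * π x * a = 1 := h3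
      have h5 : a * π x * ((π x)⁻¹ * a⁻¹ * π x * a) = π x * a := by group
      rw [h4, mul_one] at h5
      exact h5.symm
    have h6 : π x ∈ centralizer (C : Set (H ⧸ Z)) := by
      rw [mem_centralizer_iff]
      intro z hz
      obtain ⟨k, rfl⟩ := ha' z hz
      exact ((show Commute (π x) a from h2).zpow_right k).eq.symm
    rw [hcent] at h6
    obtain ⟨k, hk⟩ := ha' _ h6
    have h7 : (g ^ k)⁻¹ * x ∈ π.ker := by
      rw [MonoidHom.mem_ker, map_mul, map_inv, map_zpow, hga]
      simp only at hk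
      rw [hk, inv_mul_cancel]
    have h8 := mem_center_iff.1 (hker h7) g
    have h9 : g * x = x * g := by
      have e1 : x = g ^ k * ((g ^ k)⁻¹ * x) := by group
      calc g * x = g ^ k * (g * ((g ^ k)⁻¹ * x)) := by group
        _ = g ^ k * (((g ^ k)⁻¹ * x) * g) := by rw [h8]
        _ = x * g := by group
    have h10 : x⁻¹ * g⁻¹ * x * g = 1 := by
      calc x⁻¹ * g⁻¹ * x * g = x⁻¹ * g⁻¹ * (x * g) := by group
        _ = 1 := by rw [← h9]; group
    have h11 : (⟨x⁻¹ * g⁻¹ * x * g, hx⟩ : π.ker) = 1 := Subtype.ext h10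
    rw [h11, map_one]

end Cfsg.Agent.H622.SelfCent
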