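import Mathlib
import Cfsg.Agent.H622.Central
import Cfsg.Agent.H622.Over

/-!
# Fully ramified quotients are solvable if groups of central type are
-/

set_option autoImplicit false
open Cfsg

namespace Cfsg.Agent.H622.ToCT

open Cfsg.Agent.Characters.Core Subgroup Cfsg.Agent.H622.FR Cfsg.Agent.H622.Over
  Cfsg.Agent.H622.Central

universe u

/-- The central reduction, with a character vanishing off the centre. -/
theorem exists_central_type {H : Type u} [Group H] [Finite H] (Z : Subgroup H) [Z.Normal]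
    {θ : Z → ℂ} (hθ : IsIrrCharacter Z θ) {χ : H → ℂ} (hχ : FullRam Z.subtype θ χ) :
    ∃ (Γ : Type u) (_ : Group Γ) (_ : Finite Γ) (π : Γ →* H ⧸ Z) (X : IrrCharacter Γ),
      Function.Surjective π ∧ π.ker ≤ center Γ ∧
      ∀ g : Γ, g ∉ center Γ → (X : Γ → ℂ) g = 0 := by
  obtain ⟨Γ, hg, hfin, π, X, hπ, hker, hX, hdeg⟩ := exists_central Z hθ hχ
  refine ⟨Γ, hg, hfin, π, ⟨X, hX⟩, hπ, hker, fun g hgc => ?_⟩
  obtain ⟨c, hc⟩ := exists_hom hker hX
  have hc' : IsIrrCharacter π.ker (fun n => (c n : ℂ)) := Characters.Linear.isIrrCharacter_hom c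
  have hFR : FullRam π.ker.subtype (fun n => (c n : ℂ)) X := by
    refine ⟨⟨hX, fun n => ?_⟩, ?_⟩
    · have := hc 1 n
      rw [one_mul] at this
      simp only [coe_subtype]
      rw [this, map_one, Units.val_one, mul_one]
    · have h1 : (Nat.card (H ⧸ Z) : ℂ) = (π.ker.index : ℂ) := by
        rw [index_ker, MonoidHom.range_eq_top.2 hπ, card_top]
      rw [hdeg, h1, map_one, Units.val_one, one_pow, mul_one]
      have := π.ker.card_mul_index
      rw [← this]
      push_cast
      ring
  apply hFR.eq_zero π.ker.subtype_injective hc'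
  rw [range_subtype]
  exact fun h => hgc (hker h)

/-- If groups of central type are solvable then fully ramified quotients are solvable. -/
theorem isSolvable_of {H : Type u} [Group H] [Finite H] (Z : Subgroup H) [Z.Normal]
    (hCT : ∀ (Γ : Type u) [Group Γ] [Finite Γ] (X : IrrCharacter Γ),
      (∀ g : Γ, g ∉ center Γ → (X : Γ → ℂ) g = 0) → Group.IsSolvable Γ)
    {θ : Z → ℂ} (hθ : IsIrrCharacter Z θ) {χ : H → ℂ} (hχ : FullRam Z.subtype θ χ) :
    Group.IsSolvable (H ⧸ Z) := by
  obtain ⟨Γ, hg, hfin, π, X, hπ, -, hX⟩ := exists_central_type Z hθ hχ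
  have := hCT Γ X hX
  exact solvable_of_surjective hπ

end Cfsg.Agent.H622.ToCT
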